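import Cfsg.Agent.H53.MWDefs2
import Cfsg.Agent.H93.ClassNumber
import Cfsg.Prelude.Def_Blocks

/-!
Project KR (S4265, S4990): statements of the pieces and the kit `Bd`.
Notes: `stubs/notes/lead_kr.md`.
-/

set_option autoImplicit false

namespace Cfsg.Agent.Lead.KR

open MulAction Cfsg.Agent.H12.RO Cfsg.Agent.H53.MW

universe u

/-- every section `φ(H) N / N` has at most `c` conjugacy classes -/
def Bd {G : Type u} [Group G] (N : Subgroup G) [N.Normal] (c : ℕ) : Prop :=
  ∀ (H : Type u) [Group H] [Finite H] (φ : H →* G),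
    Nat.card (ConjClasses (H ⧸ N.comap φ)) ≤ c

theorem k_le_of_surj {G H : Type*} [Group G] [Finite G] [Group H] (f : G →* H)
    (hf : Function.Surjective f) : Nat.card (ConjClasses H) ≤ Nat.card (ConjClasses G) :=
  Nat.card_le_card_of_surjective _ (ConjClasses.map_surjective hf)

theorem k_le_card (G : Type*) [Group G] [Finite G] : Nat.card (ConjClasses G) ≤ Nat.card G :=
  Nat.card_le_card_of_surjective _ ConjClasses.mk_surjective

theorem kq_mono {H : Type*} [Group H] [Finite H] {A B : Subgroup H} [A.Normal] [B.Normal]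
    (h : A ≤ B) : Nat.card (ConjClasses (H ⧸ B)) ≤ Nat.card (ConjClasses (H ⧸ A)) := by
  refine k_le_of_surj (QuotientGroup.map A B (MonoidHom.id H) h) fun y => ?_
  obtain ⟨x, rfl⟩ := QuotientGroup.mk_surjective y
  exact ⟨QuotientGroup.mk x, rfl⟩

theorem kq_inf {H : Type*} [Group H] [Finite H] (A B : Subgroup H) [A.Normal] [B.Normal] :
    Nat.card (ConjClasses (H ⧸ (A ⊓ B))) ≤
      Nat.card (ConjClasses (H ⧸ A)) * Nat.card (ConjClasses (A ⧸ B.comap A.subtype)) := by
  have h1 := H93.card_conjClasses_le_normal_mul_quotient (A.map (QuotientGroup.mk' (A ⊓ B)))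
  have h2 : Nat.card (ConjClasses ((H ⧸ (A ⊓ B)) ⧸ A.map (QuotientGroup.mk' (A ⊓ B)))) ≤
      Nat.card (ConjClasses (H ⧸ A)) :=
    k_le_of_surj (QuotientGroup.quotientQuotientEquivQuotient (A ⊓ B) A inf_le_left).symm.toMonoidHom
      (MulEquiv.surjective _)
  let f : A →* A.map (QuotientGroup.mk' (A ⊓ B)) :=
    ((QuotientGroup.mk' (A ⊓ B)).comp A.subtype).codRestrict _ fun a => ⟨a.1, a.2, rfl⟩
  have hf : ∀ a ∈ B.comap A.subtype, f a = 1 := fun a ha =>
    Subtype.ext ((QuotientGroup.eq_one_iff _).2 ⟨a.2, ha⟩)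
  have h3 : Nat.card (ConjClasses (A.map (QuotientGroup.mk' (A ⊓ B)))) ≤
      Nat.card (ConjClasses (A ⧸ B.comap A.subtype)) := by
    refine k_le_of_surj (QuotientGroup.lift _ f hf) ?_
    rintro ⟨_, a, ha, rfl⟩
    exact ⟨QuotientGroup.mk ⟨a, ha⟩, rfl⟩
  calc _ ≤ _ := h1
    _ ≤ _ := Nat.mul_le_mul h3 h2
    _ = _ := Nat.mul_comm _ _

section Kit

variable {G : Type u} [Group G]

theorem Bd.le {N : Subgroup G} [N.Normal] {c d : ℕ} (h : Bd N c) (hc : c ≤ d) : Bd N d :=
  fun H _ _ φ => (h H φ).trans hc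

theorem Bd.mono {A B : Subgroup G} [A.Normal] [B.Normal] {c : ℕ} (h : Bd A c) (hAB : A ≤ B) :
    Bd B c := fun H _ _ φ => (kq_mono (Subgroup.comap_mono hAB)).trans (h H φ)

theorem Bd.comap {G' : Type u} [Group G'] {N : Subgroup G} [N.Normal] {c : ℕ} (h : Bd N c)
    (f : G' →* G) : Bd (N.comap f) c := fun H _ _ φ => h H (f.comp φ)

theorem Bd.index [Finite G] (N : Subgroup G) [N.Normal] : Bd N N.index := fun H _ _ φ => by
  refine (k_le_card _).trans ?_
  change (N.comap φ).index ≤ N.index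
  rw [Subgroup.index_comap]
  exact Nat.le_of_dvd (Nat.pos_of_ne_zero Subgroup.index_ne_zero_of_finite)
    (Subgroup.relIndex_dvd_index_of_normal _ _)

theorem Bd.top : Bd (⊤ : Subgroup G) 1 := fun H _ _ φ => by
  refine (k_le_card _).trans ?_
  change ((⊤ : Subgroup G).comap φ).index ≤ 1
  rw [Subgroup.comap_top, Subgroup.index_top]

/-- two steps: `A` in `G`, then `B` inside `A` -/
theorem Bd.step {A B : Subgroup G} [A.Normal] [B.Normal] {a b : ℕ} (hA : Bd A a)
    (hB : Bd (B.comap A.subtype) b) : Bd (A ⊓ B) (a * b) := fun H _ _ φ => by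
  refine (kq_mono (A := A.comap φ ⊓ B.comap φ) (B := (A ⊓ B).comap φ)
    (Subgroup.comap_inf A B φ).ge).trans ((kq_inf _ _).trans (Nat.mul_le_mul (hA H φ) ?_))
  exact hB (A.comap φ) ((φ.comp (A.comap φ).subtype).codRestrict A fun x => x.2)

theorem Bd.inf {A B : Subgroup G} [A.Normal] [B.Normal] {a b : ℕ} (hA : Bd A a) (hB : Bd B b) :
    Bd (A ⊓ B) (a * b) := hA.step (hB.comap _)

/-- the kernel of an action: it is enough to bound the subgroups of the induced group -/
theorem Bd.ker {W : Type u} [MulAction G W] [Finite G] {c : ℕ}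
    (h : ∀ Y : Subgroup (img G W), Nat.card (ConjClasses Y) ≤ c) :
    Bd (toPermHom G W).ker c := fun H _ _ φ => by
  let f : H →* img G W := (toPermHom G W).rangeRestrict.comp φ
  have : Finite (img G W) := Finite.of_surjective _ (toPermHom G W).rangeRestrict_surjective
  refine le_trans ?_ (h f.range)
  have hk : (toPermHom G W).ker.comap φ = f.ker := by
    ext x
    simp only [Subgroup.mem_comap, MonoidHom.mem_ker, f, MonoidHom.comp_apply]
    exact ⟨fun hx => Subtype.ext hx, fun hx => congrArg Subtype.val hx⟩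
  exact k_le_of_surj ((QuotientGroup.quotientKerEquivRange f).symm.trans
    (QuotientGroup.quotientMulEquivOfEq hk.symm)).toMonoidHom (MulEquiv.surjective _)

end Kit

/-- SYMP: a completely reducible solvable group on a symplectic module of order `e²` -/
def SympP (P : ℕ → Prop) : Prop :=
  ∀ (G W A : Type u) [Group G] [Finite G] [Group.IsSolvable G] [AddCommGroup W] [Finite W]
    [DistribMulAction G W] [CommGroup A] (b : W → W → A) (e : ℕ), P e → CR G W →
    Nat.card W = e ^ 2 → (∀ x y z, b (x + y) z = b x z * b y z) →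
    (∀ x y z, b x (y + z) = b x y * b x z) → (∀ x, b x x = 1) → (∀ x, (∀ y, b x y = 1) → x = 0) →
    (∀ (g : G) x y, b (g • x) (g • y) = b x y) →
    ∀ Y : Subgroup (img G W), Nat.card (ConjClasses Y) ≤ 3 ^ (e - 1)

/-- AB: abelian completely reducible groups are smaller than the module -/
def AbStmt : Prop :=
  ∀ (G W : Type u) [Group G] [Finite G] [AddCommGroup W] [Finite W] [Nontrivial W]
    [DistribMulAction G W], CR G W → IsMulCommutative (img G W) → Nat.card (img G W) < Nat.card W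

/-- ORD2: completely reducible solvable groups on 64, 81 or 144 vectors -/
def Ord2Stmt : Prop :=
  ∀ (G W : Type u) [Group G] [Finite G] [Group.IsSolvable G] [AddCommGroup W] [Finite W]
    [DistribMulAction G W], CR G W →
    (Nat.card W = 64 → Nat.card (img G W) ≤ 2187) ∧ (Nat.card W = 81 → Nat.card (img G W) ≤ 6561) ∧
    (Nat.card W = 144 → Nat.card (img G W) ≤ 177147)

/-- MAIN: the finite field form of S4265 -/
def MainStmt : Prop :=
  ∀ (G V : Type u) [Group G] [Finite G] [Group.IsSolvable G] [AddCommGroup V] [Finite V]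
    [DistribMulAction G V] [(Cfsg.fittingSubgroup G).Normal], CR G V →
    (∀ g : G, (∀ x : V, g • x = x) → g = 1) → ∀ p r : ℕ, p.Prime → (∀ v : V, p • v = 0) →
    Nat.card V = p ^ r → Bd (Cfsg.fittingSubgroup G) (3 ^ (r - 1))

/-- RED: reduction of a finite complex linear group modulo a prime of degree one -/
def RedStmt : Prop :=
  ∀ (r : ℕ) (G : Subgroup (GL (Fin r) ℂ)) [Finite G], ∃ (l : ℕ) (_ : Fact l.Prime)
    (f : G →* GL (Fin r) (ZMod l)), ¬ l ∣ Nat.card G ∧ Function.Injective f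

/-- REAL: a nilpotent coprime linear group has a real vector -/
def RealStmt : Prop :=
  ∀ (G V : Type u) [Group G] [Finite G] [Group.IsNilpotent G] [AddCommGroup V] [Finite V]
    [DistribMulAction G V] (p : ℕ), p.Prime → (∀ v : V, p • v = 0) → ¬ p ∣ Nat.card G →
    ∃ (v : V) (β : V → V → ZMod p), (∀ x y z, β (x + y) z = β x z + β y z) ∧
      (∀ x y z, β x (y + z) = β x y + β x z) ∧
      (∀ g : G, g • v = v → ∀ x y, β (g • x) (g • y) = β x y) ∧ ∀ x, (∀ y, β x y = 0) → x = 0

/-- KV: `k(GV) ≤ 3^(n-1) p^n` for solvable `G` -/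
def KVStmt : Prop :=
  ∀ (X : Type u) [Group X] [Finite X] [Group.IsSolvable X] (p n : ℕ) [Fact p.Prime]
    (V : Subgroup X) [V.Normal], (∀ v ∈ V, v ^ p = 1) → ¬ p ∣ V.index →
    Subgroup.centralizer (V : Set X) = V → Nat.card V = p ^ n →
    Nat.card (ConjClasses X) ≤ 3 ^ (n - 1) * p ^ n

/-- KX: solvable groups with `O_{p'} = 1` -/
def KXStmt : Prop :=
  ∀ (X : Type u) [Group X] [Finite X] [Group.IsSolvable X] (p : ℕ) [Fact p.Prime],
    Cfsg.pPrimeCore p X = ⊥ →
    Nat.card (ConjClasses X) ≤ 3 ^ ((Nat.card X).factorization p - 1) *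
      p ^ (Nat.card X).factorization p

/-- BLK: the Fong reduction -/
def BlkStmt : Prop :=
  ∀ (G : Type u) [Group G] [Finite G] [Group.IsSolvable G] (p : ℕ) [Fact p.Prime]
    (M : Ideal Cfsg.AlgInt), Cfsg.IsPModular p M → ∀ B : Set (Cfsg.IrrCharacter G),
    Cfsg.IsPBlock M B → ∃ (X : Type u) (_ : Group X) (_ : Finite X), Group.IsSolvable X ∧
      Cfsg.pPrimeCore p X = ⊥ ∧ (Nat.card X).factorization p = Cfsg.blockDefect p B ∧
      Set.ncard B ≤ Nat.card (ConjClasses X)

theorem s4990_of (hb : BlkStmt.{u}) (hx : KXStmt.{u}) {G : Type u} [Group G] [Finite G]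
    (hsolv : Group.IsSolvable G) (p : ℕ) [Fact p.Prime] (M : Ideal Cfsg.AlgInt)
    (hM : Cfsg.IsPModular p M) (B : Set (Cfsg.IrrCharacter G)) (hB : Cfsg.IsPBlock M B) :
    Set.ncard B ≤ 3 ^ (Cfsg.blockDefect p B - 1) * p ^ Cfsg.blockDefect p B := by
  obtain ⟨X, _, _, hs, h1, h2, h3⟩ := hb G p M hM B hB
  exact h3.trans (h2 ▸ hx X p h1)

end Cfsg.Agent.Lead.KR
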