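import Cfsg.Agent.H98.GbH

/-! Multiplicative class functions give algebra endomorphisms of the Hall algebra. -/

set_option autoImplicit false
open Cfsg Finset
open scoped ComplexConjugate MatrixGroups

namespace Cfsg.Agent.Lead.GbMul

open Cfsg.Agent.H98.GB

universe u

variable {F : Type u} [Field F] [Fintype F] [DecidableEq F] {η : Fˣ →* ℂˣ} {w : Fn F}

theorem mul_cmp (hc : ∀ n, IsClassFunction _ (w n))
    (hw : ∀ a b n (h : a + b = n) u c v, w n (tri h u c v) = w a u * w b v)
    {a b n : ℕ} (h : a + b = n) (f : GL (Fin a) F → ℂ) (f' : GL (Fin b) F → ℂ) :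
    w n * cmp η h f f' = cmp η h (w a * f) (w b * f') := by
  funext g
  simp only [H98.GB.cmp, cmpS, Pi.mul_apply]
  rw [mul_left_comm]
  congr 1
  simp only [mul_sum]
  refine sum_congr rfl fun x _ => sum_congr rfl fun u _ => sum_congr rfl fun c _ =>
    sum_congr rfl fun v _ => ?_
  split_ifs with h1
  · rw [h1.2, hc, hw]; ring
  · simp

theorem mul : MULStmt.{u} := by
  intro F _ _ _ η H w hc h0 hw
  have tw : ∀ x : H.A, TwF η fun n => w n * H.ev x n := fun x n y g => by
    simp only [Pi.mul_apply]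
    rw [hc, H.tw x n y g]; ring
  have ev : ∀ x : H.A, H.ev (H.of fun n => w n * H.ev x n) = fun n => w n * H.ev x n :=
    fun x => H.ev_of (tw x)
  let L : H.A →ₗ[ℂ] H.A :=
    { toFun := fun x => H.of fun n => w n * H.ev x n
      map_add' := fun x y => H.inj (by
        rw [map_add H.ev (H.of _), ev, ev, ev]; funext n; simp [mul_add])
      map_smul' := fun c x => H.inj (by
        rw [RingHom.id_apply, map_smul H.ev c (H.of _), ev, ev]; funext n; simp) }
  have eL : ∀ x n, H.ev (L x) n = w n * H.ev x n := fun x n => congrFun (ev x) n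
  have hg : ∀ m x, H.Hg m x → H.Hg m (L x) := fun m x hx n hn => by rw [eL, hx n hn, mul_zero]
  refine ⟨AlgHom.ofLinearMap L (H.inj ?_) fun x y => H.inj ?_, eL, hg, fun m x hx =>
    ⟨hg m x hx.1, hx.2.1, fun a b h ha hb u v => ?_⟩⟩
  · funext n
    rw [eL, H.ev_one]
    rcases eq_or_ne n 0 with rfl | hn
    · rw [h0, one_mul]
    · rw [one, Pi.single_eq_of_ne hn, mul_zero]
  · funext n
    rw [eL, H.ev_mul, H.ev_mul]
    simp only [H98.GB.mul, mul_sum, eL, mul_cmp hc hw]
  · have := hx.2.2 a b h ha hb u v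
    change res h (H.ev (L x) m) u v = 0
    rw [eL]
    simp only [res, Pi.mul_apply, hw, ← mul_sum] at this ⊢
    rw [mul_left_comm, this, mul_zero]

end Cfsg.Agent.Lead.GbMul
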