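import Cfsg.Agent.H98.GbH

/-! The projection to the `p`-regular part is an algebra endomorphism of the Hall algebra. -/

set_option autoImplicit false
open Cfsg Finset
open scoped ComplexConjugate MatrixGroups

namespace Cfsg.Agent.Lead.GbPim

open Cfsg.Agent.H98.GB

universe u

variable {F : Type u} [Field F] {a b n : ℕ} (h : a + b = n)

theorem tri_pow (u : GL (Fin a) F) (c : Matrix (Fin a) (Fin b) F) (v : GL (Fin b) F) (N : ℕ) :
    ∃ c', tri h u c v ^ N = tri h (u ^ N) c' (v ^ N) := by
  induction N with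
  | zero => exact ⟨0, by simp [tri_one]⟩
  | succ N ih =>
    obtain ⟨c', hc⟩ := ih
    exact ⟨_, by rw [pow_succ, hc, tri_mul, ← pow_succ, ← pow_succ]⟩

theorem tri_pow_one (c : Matrix (Fin a) (Fin b) F) (N : ℕ) :
    tri h 1 c 1 ^ N = tri h 1 (N • c) 1 := by
  induction N with
  | zero => simp [tri_one]
  | succ N ih =>
    rw [pow_succ, ih, tri_mul]
    simp [add_smul, add_comm]

theorem reg_tri [Fintype F] {p : ℕ} (hp : p.Prime) (hF : p ≠ ringChar F) (u : GL (Fin a) F)
    (c : Matrix (Fin a) (Fin b) F) (v : GL (Fin b) F) :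
    IsPRegular p (tri h u c v) ↔ IsPRegular p u ∧ IsPRegular p v := by
  unfold IsPRegular
  constructor
  · intro h1
    obtain ⟨c', hc⟩ := tri_pow h u c v (orderOf (tri h u c v))
    rw [pow_orderOf_eq_one, ← tri_one h] at hc
    obtain ⟨e1, -, e2⟩ := tri_inj hc
    exact ⟨fun d => h1 (d.trans (orderOf_dvd_of_pow_eq_one e1.symm)),
      fun d => h1 (d.trans (orderOf_dvd_of_pow_eq_one e2.symm))⟩
  · rintro ⟨h1, h2⟩ d
    obtain ⟨c', hc⟩ := tri_pow h u c v (orderOf u * orderOf v)
    rw [pow_mul u, pow_orderOf_eq_one, one_pow, pow_mul' v, pow_orderOf_eq_one, one_pow] at hc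
    have h3 : tri h u c v ^ (orderOf u * orderOf v * ringChar F) = 1 := by
      rw [pow_mul, hc, tri_pow_one, ← Nat.cast_smul_eq_nsmul F, ringChar.Nat.cast_ringChar,
        zero_smul, tri_one]
    rcases (Nat.Prime.dvd_mul hp).1 (d.trans (orderOf_dvd_of_pow_eq_one h3)) with d | d
    · exact ((Nat.Prime.dvd_mul hp).1 d).elim h1 h2
    · exact hF ((Nat.prime_dvd_prime_iff_eq hp (CharP.char_is_prime F (ringChar F))).1 d)

theorem reg_conj {G : Type u} [Group G] (p : ℕ) (x g : G) :
    IsPRegular p (x * g * x⁻¹) ↔ IsPRegular p g := by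
  unfold IsPRegular
  rw [← MulAut.conj_apply, MulEquiv.orderOf_eq]

theorem pim (hM : MULStmt.{u}) : PIMStmt.{u} := by
  intro F _ _ _ η H p hp hF
  have mulw : ∀ n (f : GL (Fin n) F → ℂ), pRegularPart p 1 * f = pRegularPart p f := fun n f => by
    funext g
    simp only [pRegularPart, Pi.mul_apply, Pi.one_apply]
    split_ifs <;> simp
  obtain ⟨T, h1, h2, h3⟩ := hM F η H (fun _ => pRegularPart p 1)
    (fun n => by
      intro x g
      have := reg_conj p g x
      by_cases h1 : IsPRegular p x <;> simp [pRegularPart, this, h1])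
    (by
      funext g
      have : IsPRegular p g := by
        rw [Subsingleton.elim g 1]; simpa [IsPRegular] using hp.ne_one
      simp [pRegularPart, this])
    (fun a b n h u c v => by
      have := reg_tri h hp hF u c v
      by_cases h1 : IsPRegular p u <;> by_cases h2 : IsPRegular p v <;>
        simp [pRegularPart, this, h1, h2])
  simp only [mulw] at h1
  have e : ∀ x, T x = H.pi p x := fun x => by
    have hx : (fun n => pRegularPart p (H.ev x n)) = H.ev (T x) := funext fun n => (h1 x n).symm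
    apply H.inj
    rw [Hall.pi, hx, H.ev_of (H.tw _)]
  refine ⟨T, e, fun x n => e x ▸ h1 x n, fun m x => e x ▸ h2 m x, fun m x => e x ▸ h3 m x,
    fun x => ?_, fun n x y => ?_⟩
  · apply H.inj
    funext n g
    rw [← e, ← e, h1, h1]
    simp only [pRegularPart]
    split_ifs <;> rfl
  · rw [Hall.ip, Hall.ip, ← e, ← e, h1, h1]
    unfold classInner
    congr 1
    refine sum_congr rfl fun g _ => ?_
    simp only [pRegularPart]
    split_ifs <;> simp

end Cfsg.Agent.Lead.GbPim
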