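import Cfsg.Agent.Lead.KRDefs
import Cfsg.Agent.H12.RO15
import Cfsg.Agent.H3.Fitting

/-!
Project KR: real vectors for nilpotent groups.
-/

set_option autoImplicit false

namespace Cfsg.Agent.Lead.KR

open MulAction Cfsg.Agent.H12.RO Cfsg.Agent.H53.MW
open scoped commutatorElement

universe u

/-- Galois descent gives an invariant form -/
theorem form_of_semilinear {H V K : Type*} [Group H] [Finite H] [AddCommGroup V] [Finite V]
    [DistribMulAction H V] [Field K] [Finite K] [Module K V] (p : ℕ) [Fact p.Prime] [CharP K p]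
    (σ : H →* RingAut K) (hσ : Function.Injective σ)
    (semi : ∀ (g : H) (c : K) (v : V), g • c • v = σ g c • g • v) :
    ∃ β : V → V → ZMod p, (∀ x y z, β (x + y) z = β x z + β y z) ∧
      (∀ x y z, β x (y + z) = β x y + β x z) ∧
      (∀ (g : H) x y, β (g • x) (g • y) = β x y) ∧ ∀ x, (∀ y, β x y = 0) → x = 0 := by
  classical
  have := Fintype.ofFinite H
  let _ : Algebra (ZMod p) K := ZMod.algebra K p
  have hspan : Submodule.span K {v : V | ∀ g : H, g • v = v} = ⊤ := by
    by_contra hne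
    obtain ⟨φ, h1, h2⟩ := Submodule.exists_dual_map_eq_bot_of_lt_top (lt_top_iff_ne_top.2 hne)
      inferInstance
    refine h1 (LinearMap.ext fun x => ?_)
    have hli := (linearIndependent_monoidHom K K).comp
      (fun g : H => ((σ g).toRingHom.toMonoidHom : K →* K))
      (fun a b e => hσ (RingEquiv.ext fun c => DFunLike.congr_fun e c))
    have := Fintype.linearIndependent_iff.1 hli (fun g => φ (g • x)) (funext fun c => by
      have h3 : ∑ g : H, g • c • x ∈ Submodule.span K {v : V | ∀ g : H, g • v = v} :=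
        Submodule.subset_span fun k => by
          rw [Finset.smul_sum]
          exact Fintype.sum_equiv (Equiv.mulLeft k) _ _ fun g => by simp [mul_smul]
      have h4 : φ (∑ g : H, g • c • x) = 0 := (Submodule.mem_bot K).1 (h2 ▸ ⟨_, h3, rfl⟩)
      simp only [map_sum, semi, map_smul, smul_eq_mul] at h4
      simpa [Finset.sum_apply, mul_comm] using h4) 1
    simpa using this
  obtain ⟨s, hs, h1, h2⟩ := exists_linearIndependent K {v : V | ∀ g : H, g • v = v}
  let b : Module.Basis s K V := Module.Basis.mk h2 (by rw [Subtype.range_coe, h1, hspan])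
  have := Fintype.ofFinite s
  have hb : ∀ (g : H) (x : V) (i : s), b.repr (g • x) i = σ g (b.repr x i) := fun g x i => by
    have h3 : g • x = ∑ j, σ g (b.repr x j) • b j := by
      conv_lhs => rw [← b.sum_repr x, Finset.smul_sum]
      refine Finset.sum_congr rfl fun j _ => ?_
      rw [semi, Module.Basis.mk_apply, hs j.2 g]
    rw [h3, b.repr_sum_self]
  refine ⟨fun x y => Algebra.trace (ZMod p) K (∑ i, b.repr x i * b.repr y i), fun x y z => ?_,
    fun x y z => ?_, fun g x y => ?_, fun x hx => ?_⟩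
  · simp only [map_add, Finsupp.add_apply, add_mul, Finset.sum_add_distrib]
  · simp only [map_add, Finsupp.add_apply, mul_add, Finset.sum_add_distrib]
  · simp only [hb, ← map_mul]
    rw [← map_sum (σ g)]
    exact Algebra.trace_eq_of_algEquiv (AlgEquiv.ofRingEquiv (f := σ g) fun c =>
      DFunLike.congr_fun (RingHom.ext_zmod ((σ g).toRingHom.comp (algebraMap (ZMod p) K))
        (algebraMap (ZMod p) K)) c) _
  · refine b.repr.injective (Finsupp.ext fun i => ?_)
    by_contra hi
    rw [map_zero, Finsupp.zero_apply] at hi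
    obtain ⟨c, hc⟩ := Algebra.trace_surjective (ZMod p) K 1
    have := hx (((b.repr x i)⁻¹ * c) • b i)
    simp only [map_smul, Module.Basis.repr_self, Finsupp.smul_apply, Finsupp.single_apply,
      smul_eq_mul, mul_ite, mul_one, mul_zero, Finset.sum_ite_eq, Finset.mem_univ, if_true] at this
    rw [mul_inv_cancel_left₀ hi, hc] at this
    exact one_ne_zero this

theorem real : RealStmt.{u} := by
  intro G V _ _ hnil _ _ _ p hp hk hc
  have := Fact.mk hp
  refine ind (fun G V _ _ _ => Group.IsNilpotent G → (∀ v : V, p • v = 0) →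
    ∃ (v : V) (β : V → V → ZMod p), (∀ x y z, β (x + y) z = β x z + β y z) ∧
      (∀ x y z, β x (y + z) = β x y + β x z) ∧
      (∀ g : G, g • v = v → ∀ x y, β (g • x) (g • y) = β x y) ∧ ∀ x, (∀ y, β x y = 0) → x = 0)
    ?_ ?_ ?_ ?_ ?_ G V (cr_of_coprime hp ((Nat.Prime.coprime_iff_not_dvd hp).2 hc) hk) hnil hk
  · intro G V _ _ _ _ _ _
    exact ⟨0, fun _ _ => 0, by simp, by simp, by simp, fun x _ => Subsingleton.elim _ _⟩
  · intro G V _ _ _ _ _ _ U W hU hW _ _ _ k3 k4 iU iW hn hk
    let _ := subAct hU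
    let _ := subAct hW
    obtain ⟨u, α, a1, a2, a3, a4⟩ := iU hn fun v => Subtype.ext (hk v)
    obtain ⟨w, β, b1, b2, b3, b4⟩ := iW hn fun v => Subtype.ext (hk v)
    let e : (U × W) ≃+ V := AddEquiv.ofBijective (U.subtype.coprod W.subtype) ⟨by
      rw [injective_iff_map_eq_zero]
      rintro ⟨x, y⟩ h
      have h1 : (x : V) = -y := eq_neg_of_add_eq_zero_left h
      have h2 : (x : V) ∈ U ⊓ W := ⟨x.2, h1 ▸ W.neg_mem y.2⟩
      rw [k3, AddSubgroup.mem_bot] at h2
      rw [h2, zero_eq_neg] at h1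
      exact Prod.ext (Subtype.ext h2) (Subtype.ext h1), fun x => by
      obtain ⟨a, ha, b, hb, rfl⟩ := AddSubgroup.mem_sup.1 (k4 ▸ AddSubgroup.mem_top x : x ∈ U ⊔ W)
      exact ⟨(⟨a, ha⟩, ⟨b, hb⟩), rfl⟩⟩
    have he : ∀ (g : G) (x : V), e.symm (g • x) = (g • (e.symm x).1, g • (e.symm x).2) :=
      fun g x => by
        obtain ⟨y, rfl⟩ := e.surjective x
        rw [e.symm_apply_apply, e.symm_apply_eq]
        exact smul_add g (y.1 : V) y.2
    have a0 : ∀ x, α x 0 = 0 := fun x => by simpa using a2 x 0 0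
    have b0 : ∀ x, β x 0 = 0 := fun x => by simpa using b2 x 0 0
    refine ⟨u + w, fun x y => α (e.symm x).1 (e.symm y).1 + β (e.symm x).2 (e.symm y).2,
      fun x y z => ?_, fun x y z => ?_, fun g hg x y => ?_, fun x hx => ?_⟩
    · simp only [map_add, Prod.fst_add, Prod.snd_add, a1, b1]; ring
    · simp only [map_add, Prod.fst_add, Prod.snd_add, a2, b2]; ring
    · obtain ⟨h1, h2⟩ := fix_of_fix_add hU hW k3 u.2 w.2 hg
      simp only [he, a3 g (Subtype.ext h1), b3 g (Subtype.ext h2)]
    · refine e.symm.injective (Prod.ext (a4 _ fun y => ?_) (b4 _ fun y => ?_) |>.trans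
        (map_zero _).symm)
      · simpa [b0] using hx (e (y, 0))
      · simpa [a0] using hx (e (0, y))
  · intro G G' V _ _ _ _ _ _ _ f hf e i hn hk
    obtain ⟨v, β, h1, h2, h3, h4⟩ := i (Group.nilpotent_of_surjective f hf) hk
    exact ⟨v, β, h1, h2, fun g hg x y => by rw [← e, ← e]; exact h3 _ (by rw [e, hg]) x y, h4⟩
  · intro G V _ _ _ _ _ _ _ hf hpr _ hn hk
    obtain ⟨K, _, _, _, σ, U, To, E, S⟩ := exists_str hf hpr
    obtain ⟨v, hv⟩ := exists_ne (0 : V)
    have : CharP K p := (CharP.charP_iff_prime_eq_zero hp).2 (by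
      have := hk v
      rw [← Nat.cast_smul_eq_nsmul K] at this
      exact (smul_eq_zero.1 this).resolve_right hv)
    have := S.Un
    have hcomm : ∀ g : G, σ g = 1 → ∀ u ∈ U, g * u = u * g := fun g hg u hu => by
      obtain ⟨c, hc⟩ := S.Usc u hu
      rw [← mul_inv_eq_one]
      refine hf _ fun x => ?_
      obtain ⟨y, rfl⟩ : ∃ y, x = (u * g) • y := ⟨(u * g)⁻¹ • x, (smul_inv_smul _ _).symm⟩
      rw [mul_smul, inv_smul_smul, mul_smul, mul_smul, hc, hc, S.semi, hg]
      rfl
    have hUk : U ≤ σ.ker := fun u hu => S.σU u fun w hw => by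
      obtain ⟨c, hc⟩ := S.Usc u hu
      obtain ⟨d, hd⟩ := S.Usc w hw
      rw [← mul_inv_eq_one]
      refine hf _ fun x => ?_
      obtain ⟨y, rfl⟩ : ∃ y, x = (w * u) • y := ⟨(w * u)⁻¹ • x, (smul_inv_smul _ _).symm⟩
      rw [mul_smul, inv_smul_smul, mul_smul, mul_smul, hc, hc, hd, hd, smul_comm]
    have hker : σ.ker ≤ U := by
      by_contra hne
      obtain ⟨x, hx, hxU, h1⟩ := H3.exists_central_mod hne
      have hx' : x ∈ Subgroup.centralizer (U : Set G) := fun u hu => (hcomm x hx u hu).symm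
      refine hxU (S.maxU (U ⊔ Subgroup.zpowers x) ⟨fun a ha g => ?_⟩ le_sup_left ?_
        (Subgroup.mem_sup_right (Subgroup.mem_zpowers x)))
      · have : U ⊔ Subgroup.zpowers x ≤ (U ⊔ Subgroup.zpowers x).comap (MulAut.conj g).toMonoidHom := by
          refine sup_le (fun u hu => Subgroup.mem_sup_left (S.Un.conj_mem u hu g)) ?_
          rw [Subgroup.zpowers_le]
          change g * x * g⁻¹ ∈ U ⊔ Subgroup.zpowers x
          rw [show g * x * g⁻¹ = ⁅g, x⁆ * x by simp [commutatorElement_def]]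
          exact Subgroup.mul_mem_sup (h1 g) (Subgroup.mem_zpowers x)
        exact this ha
      · have h2 : U ⊔ Subgroup.zpowers x ≤ σ.ker ⊓ Subgroup.centralizer {x} :=
          sup_le (fun u hu => ⟨hUk hu, Subgroup.mem_centralizer_singleton_iff.2
            (hcomm x hx u hu).symm⟩)
            ((Subgroup.zpowers_le).2 ⟨hx, Subgroup.mem_centralizer_singleton_iff.2 rfl⟩)
        intro a ha b hb
        have h3 : U ⊔ Subgroup.zpowers x ≤ Subgroup.centralizer {a} :=
          sup_le (fun u hu => Subgroup.mem_centralizer_singleton_iff.2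
            (hcomm a (h2 ha).1 u hu).symm)
            ((Subgroup.zpowers_le).2 (Subgroup.mem_centralizer_singleton_iff.2
              (Subgroup.mem_centralizer_singleton_iff.1 (h2 ha).2).symm))
        exact (Subgroup.mem_centralizer_singleton_iff.1 (h3 hb)).symm
    obtain ⟨β, h1, h2, h3, h4⟩ := form_of_semilinear (H := stabilizer G v) (V := V) p
      (σ.comp (stabilizer G v).subtype) ((injective_iff_map_eq_one _).2 fun g hg => by
        obtain ⟨c, hc⟩ := S.Usc g (hker hg)
        have h1 : (c - 1) • v = 0 := by rw [sub_smul, ← hc, one_smul, sub_eq_zero]; exact g.2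
        rw [sub_eq_zero.1 ((smul_eq_zero.1 h1).resolve_right hv)] at hc
        exact Subtype.ext (hf _ fun x => by rw [hc, one_smul])) fun g => S.semi g
    exact ⟨v, β, h1, h2, fun g hg => h3 ⟨g, hg⟩, h4⟩
  · intro G V Ω N _ _ _ _ _ _ _ _ _ _ _ _ hf hirr S A IH hn hk
    classical
    obtain ⟨ω₀⟩ : Nonempty Ω := inferInstance
    let _ := subAct (S.inv_range ω₀)
    obtain ⟨w, β, h1, h2, h3, h4⟩ := IH (stabilizer G ω₀) (S.e ω₀).range (S.card_range_lt ω₀)
      (S.irr_range hirr ω₀).cr inferInstance fun v => Subtype.ext (hk v)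
    obtain ⟨t, v, ht, -, hv⟩ := S.step hirr ω₀ (ι := Unit) (fun _ => ()) (fun _ _ => w)
      fun _ _ _ _ _ => rfl
    let c : Ω → V → (S.e ω₀).range := fun ω x => ⟨S.e ω₀ ((t ω)⁻¹ • x), _, rfl⟩
    have c1 : ∀ ω x y, c ω (x + y) = c ω x + c ω y := fun ω x y =>
      Subtype.ext (by simp [c, smul_add])
    have c2 : ∀ ω x, t ω • (c ω x : V) = S.e ω x := fun ω x => by
      rw [← S.equiv, ht, smul_inv_smul]
    have b0 : ∀ x, β x 0 = 0 := fun x => by simpa using h2 x 0 0
    refine ⟨v (), fun x y => ∑ ω, β (c ω x) (c ω y), fun x y z => ?_, fun x y z => ?_,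
      fun g hg x y => ?_, fun x hx => ?_⟩
    · simp only [c1, h1, Finset.sum_add_distrib]
    · simp only [c1, h2, Finset.sum_add_distrib]
    · refine (Fintype.sum_equiv (toPerm g) _ _ fun ω => ?_).symm
      have e1 : ((t (g • ω))⁻¹ * g * t ω) • ω₀ = ω₀ := by
        rw [mul_smul, mul_smul, ht, inv_smul_eq_iff, ht]
      have e2 : ∀ z, c (g • ω) (g • z) =
          (⟨_, e1⟩ : stabilizer G ω₀) • c ω z := fun z => Subtype.ext (by
        change S.e ω₀ ((t (g • ω))⁻¹ • g • z) = ((t (g • ω))⁻¹ * g * t ω) • S.e ω₀ ((t ω)⁻¹ • z)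
        rw [← S.equiv, e1, mul_smul, mul_smul, smul_inv_smul])
      rw [toPerm_apply, e2, e2]
      exact (h3 _ (Subtype.ext ((hv g (fun _ => hg) ω).2 ())) _ _).symm
    · rw [← S.sum x]
      refine Finset.sum_eq_zero fun ω _ => ?_
      rw [← c2, h4 (c ω x) fun z => ?_, ZeroMemClass.coe_zero, smul_zero]
      have e1 : S.e ω (t ω • (z : V)) = t ω • (z : V) := by
        obtain ⟨y, hy⟩ := z.2
        conv_lhs => rw [← ht ω]
        rw [ht, ← hy, ← S.equiv, ht, S.idem]
      have := hx (t ω • (z : V))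
      beta_reduce at this
      rw [Finset.sum_eq_single ω] at this
      · rwa [show c ω (t ω • (z : V)) = z from Subtype.ext
          (MulAction.injective (t ω) ((c2 _ _).trans e1))] at this
      · intro a _ ha
        rw [show c a (t ω • (z : V)) = 0 from Subtype.ext (MulAction.injective (t a) (by
          change t a • (c a _ : V) = t a • (0 : V)
          rw [c2, ← e1, S.orth _ _ ha, smul_zero])), b0]
      · simp

end Cfsg.Agent.Lead.KR
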