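import Cfsg.Agent.Lead.KRDefs
import Cfsg.Agent.H12.RO15

/-!
Project KR: reduction of a finite complex linear group modulo a prime of degree one.
-/

set_option autoImplicit false

namespace Cfsg.Agent.Lead.KR

open Polynomial

/-- a non-constant integer polynomial has a root modulo a prime not dividing `N` -/
theorem exists_prime_root (f : ℤ[X]) (hf : 0 < f.natDegree) (N : ℤ) (hN : N ≠ 0) :
    ∃ l : ℕ, l.Prime ∧ (N : ZMod l) ≠ 0 ∧ ∃ t : ZMod l, aeval t f = 0 := by
  have hc : ∀ (l : ℕ) (t : ℤ), aeval (t : ZMod l) f = ((f.eval t : ℤ) : ZMod l) := fun l t => by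
    rw [← eq_intCast (algebraMap ℤ (ZMod l)) t, aeval_algebraMap_apply, ← eq_intCast (algebraMap ℤ (ZMod l))]
    simp
  by_cases h0 : f.coeff 0 = 0
  · obtain ⟨l, hl, hp⟩ := Nat.exists_infinite_primes (N.natAbs + 1)
    refine ⟨l, hp, fun h => ?_, ((0 : ℤ) : ZMod l), by rw [hc, ← coeff_zero_eq_eval_zero, h0]; simp⟩
    rw [ZMod.intCast_zmod_eq_zero_iff_dvd, Int.natCast_dvd] at h
    have := Nat.le_of_dvd (Int.natAbs_pos.2 hN) h
    omega
  set c := f.coeff 0 with hcdef
  have key : ∀ s : ℤ, f.eval (c * N * s) = c * (1 + N * (s * f.divX.eval (c * N * s))) := fun s => by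
    conv_lhs => rw [← divX_mul_X_add f]
    rw [eval_add, eval_mul, eval_X, eval_C]
    ring
  by_cases hs : ∃ s : ℤ, (1 + N * (s * f.divX.eval (c * N * s))).natAbs ≠ 1
  · obtain ⟨s, hs⟩ := hs
    obtain ⟨l, hp, hl⟩ := Nat.exists_prime_and_dvd hs
    rw [← Int.natCast_dvd, ← ZMod.intCast_zmod_eq_zero_iff_dvd] at hl
    have := Fact.mk hp
    refine ⟨l, hp, fun h => ?_, ((c * N * s : ℤ) : ZMod l), by rw [hc, key, Int.cast_mul, hl, mul_zero]⟩
    rw [Int.cast_add, Int.cast_mul, h, zero_mul, add_zero, Int.cast_one] at hl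
    exact one_ne_zero hl
  push Not at hs
  exfalso
  have h1 : (f - C c) * (f + C c) = 0 := by
    refine eq_zero_of_infinite_isRoot _ (Set.infinite_of_injective_forall_mem
      (f := fun s : ℤ => c * N * s) (fun a b h => mul_left_cancel₀ (mul_ne_zero h0 hN) h) fun s => ?_)
    change eval _ _ = 0
    rw [eval_mul, eval_sub, eval_add, eval_C, key]
    rcases Int.natAbs_eq_iff.1 (hs s) with h | h <;> rw [h] <;> simp
  rcases mul_eq_zero.1 h1 with h | h
  · rw [sub_eq_zero.1 h, natDegree_C] at hf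
    exact lt_irrefl _ hf
  · rw [eq_neg_of_add_eq_zero_left h, natDegree_neg, natDegree_C] at hf
    exact lt_irrefl _ hf

/-- the graph of the place `a ↦ t` -/
def plc {L : Type*} [Field L] (a : L) {F : Type*} [Field F] (t : F) : Subring (L × F) where
  carrier := {z | ∃ n : ℤ, (n : F) ≠ 0 ∧ ∃ g : ℤ[X], n * z.1 = aeval a g ∧ n * z.2 = aeval t g}
  one_mem' := ⟨1, by simp, 1, by simp, by simp⟩
  zero_mem' := ⟨1, by simp, 0, by simp, by simp⟩
  mul_mem' := by
    rintro x y ⟨n, hn, g, h1, h2⟩ ⟨m, hm, k, h3, h4⟩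
    refine ⟨n * m, by push_cast; exact mul_ne_zero hn hm, g * k, ?_, ?_⟩
    · rw [map_mul, ← h1, ← h3, Prod.fst_mul]; push_cast; ring
    · rw [map_mul, ← h2, ← h4, Prod.snd_mul]; push_cast; ring
  add_mem' := by
    rintro x y ⟨n, hn, g, h1, h2⟩ ⟨m, hm, k, h3, h4⟩
    refine ⟨n * m, by push_cast; exact mul_ne_zero hn hm, C m * g + C n * k, ?_, ?_⟩
    · simp only [map_add, map_mul, map_intCast, ← h1, ← h3, Prod.fst_add, eq_intCast]; push_cast; ring
    · simp only [map_add, map_mul, map_intCast, ← h2, ← h4, Prod.snd_add, eq_intCast]; push_cast; ring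
  neg_mem' := by
    rintro x ⟨n, hn, g, h1, h2⟩
    exact ⟨n, hn, -g, by rw [map_neg, ← h1, Prod.fst_neg, mul_neg],
      by rw [map_neg, ← h2, Prod.snd_neg, mul_neg]⟩

theorem exists_place_numberField (L : Type*) [Field L] [Algebra ℚ L] [Module.Finite ℚ L]
    (s : Finset L) : ∃ (l : ℕ) (_ : Fact l.Prime) (Γ : Subring (L × ZMod l)),
      (∀ y, (0, y) ∈ Γ → y = 0) ∧ ∀ x ∈ s, ∃ y, (x, y) ∈ Γ := by
  classical
  have : CharZero L := algebraRat.charZero L
  obtain ⟨α, hα⟩ := Field.exists_primitive_element ℚ L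
  have halg : IsAlgebraic ℚ α := IsAlgebraic.of_finite ℚ α
  obtain ⟨n, hn, hint⟩ := ((IsFractionRing.isAlgebraic_iff ℤ ℚ L).2 halg).exists_integral_multiple
  set a := n • α with ha
  have hT : ∀ z : L, ∃ m : ℤ, m ≠ 0 ∧ ∃ g : ℤ[X], m * z = aeval a g := by
    intro z
    have hz : z ∈ (IntermediateField.adjoin ℚ {α}).toSubalgebra := by rw [hα]; trivial
    rw [IntermediateField.adjoin_simple_toSubalgebra_of_isAlgebraic halg,
      Algebra.adjoin_singleton_eq_range_aeval] at hz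
    obtain ⟨q, rfl⟩ := hz
    change ∃ m : ℤ, m ≠ 0 ∧ ∃ g : ℤ[X], m * aeval α q = aeval a g
    induction q using Polynomial.induction_on' with
    | add p q hp hq =>
      obtain ⟨m, hm, g, h1⟩ := hp
      obtain ⟨m', hm', g', h2⟩ := hq
      refine ⟨m * m', mul_ne_zero hm hm', C m' * g + C m * g', ?_⟩
      simp only [map_add, map_mul, map_intCast, ← h1, ← h2, eq_intCast]; push_cast; ring
    | monomial k c =>
      refine ⟨c.den * n ^ k, mul_ne_zero (by exact_mod_cast c.den_nz) (pow_ne_zero _ hn),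
        monomial k c.num, ?_⟩
      have hc : ((c.num : ℤ) : L) = (c : L) * (c.den : L) := by
        have := congrArg (Rat.cast : ℚ → L) (Rat.mul_den_eq_num c)
        push_cast at this
        exact this.symm
      rw [aeval_monomial, aeval_monomial, ha, zsmul_eq_mul, eq_intCast, eq_ratCast, hc]
      push_cast
      ring
  choose m hm g hg using hT
  obtain ⟨l, hp, hN, t, ht⟩ := exists_prime_root (minpoly ℤ a) (minpoly.natDegree_pos hint)
    (∏ x ∈ s, m x) (Finset.prod_ne_zero_iff.2 fun x _ => hm x)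
  have := Fact.mk hp
  refine ⟨l, this, plc a t, ?_, fun x hx => ?_⟩
  · rintro y ⟨k, hk, q, h1, h2⟩
    obtain ⟨r, rfl⟩ := minpoly.isIntegrallyClosed_dvd hint (p := q) (by rw [← h1]; simp)
    rw [map_mul, ht, zero_mul] at h2
    exact (mul_eq_zero.1 h2).resolve_left hk
  · have hx' : (m x : ZMod l) ≠ 0 := fun h => hN (by
      rw [Int.cast_prod]; exact Finset.prod_eq_zero hx h)
    exact ⟨(m x : ZMod l)⁻¹ * aeval t (g x), m x, hx', g x, hg x, by
      rw [← mul_assoc, mul_inv_cancel₀ hx', one_mul]⟩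

theorem exists_place (s : Finset ℂ) : ∃ (l : ℕ) (_ : Fact l.Prime) (Γ : Subring (ℂ × ZMod l)),
    (∀ y, (0, y) ∈ Γ → y = 0) ∧ ∀ x ∈ s, ∃ y, (x, y) ∈ Γ := by
  classical
  let A := Algebra.adjoin ℚ (s : Set ℂ)
  have : Algebra.FiniteType ℚ A := (Subalgebra.fg_iff_finiteType _).1 ⟨s, rfl⟩
  obtain ⟨m, hm⟩ := Ideal.exists_maximal A
  let _ : Field (A ⧸ m) := Ideal.Quotient.field m
  have : Module.Finite ℚ (A ⧸ m) := finite_of_finite_type_of_isJacobsonRing ℚ (A ⧸ m)
  let ι : s → A ⧸ m := fun x => Ideal.Quotient.mk m ⟨x.1, Algebra.subset_adjoin x.2⟩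
  obtain ⟨l, hl, Γ, h1, h2⟩ := exists_place_numberField (A ⧸ m) (Finset.univ.image ι)
  refine ⟨l, hl, (Γ.comap ((Ideal.Quotient.mk m).prodMap (RingHom.id _))).map
    (A.val.toRingHom.prodMap (RingHom.id _)), ?_, fun x hx => ?_⟩
  · rintro y ⟨⟨u, v⟩, h, e⟩
    obtain ⟨e1, e2⟩ := Prod.ext_iff.1 e
    have hu : u = 0 := Subtype.ext e1
    subst hu
    exact e2.symm.trans (h1 v (by simpa using h))
  · obtain ⟨y, hy⟩ := h2 _ (Finset.mem_image.2 ⟨⟨x, hx⟩, Finset.mem_univ _, rfl⟩)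
    exact ⟨y, (⟨x, Algebra.subset_adjoin hx⟩, y), hy, rfl⟩

theorem red : RedStmt := by
  classical
  intro r G _
  have := Fintype.ofFinite G
  let x : G → Fin r → Fin r → ℂ := fun g i j => (g.1 : Matrix (Fin r) (Fin r) ℂ) i j
  let e : Finset ℂ := Finset.univ.image fun z : G × Fin r × Fin r => x z.1 z.2.1 z.2.2
  let d : Finset ℂ := (e ×ˢ e).image fun z => (z.1 - z.2)⁻¹
  obtain ⟨l, hl, Γ, h1, h2⟩ := exists_place (insert (Nat.card G : ℂ)⁻¹ (e ∪ d))
  have huniq : ∀ {a : ℂ} {y y' : ZMod l}, (a, y) ∈ Γ → (a, y') ∈ Γ → y = y' := fun {a y y'} h h' =>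
    sub_eq_zero.1 (h1 _ (by simpa using Γ.sub_mem h h'))
  have hx : ∀ g i j, x g i j ∈ e := fun g i j =>
    Finset.mem_image.2 ⟨(g, i, j), Finset.mem_univ _, rfl⟩
  choose y hy using fun g i j => h2 (x g i j)
    (Finset.mem_insert_of_mem (Finset.mem_union_left _ (hx g i j)))
  let F : G →* Matrix (Fin r) (Fin r) (ZMod l) :=
    { toFun := fun g => Matrix.of (y g)
      map_one' := by
        ext i j
        refine huniq (hy 1 i j) ?_
        by_cases h : i = j
        · subst h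
          simp only [x, OneMemClass.coe_one, Units.val_one, Matrix.one_apply_eq]
          exact Γ.one_mem
        · simp only [x, OneMemClass.coe_one, Units.val_one, Matrix.one_apply_ne h]
          exact Γ.zero_mem
      map_mul' := fun g h => by
        ext i j
        refine huniq (hy (g * h) i j) ?_
        have := Γ.sum_mem (t := Finset.univ) fun k _ => Γ.mul_mem (hy g i k) (hy h k j)
        convert this using 1
        ext
        · simp [x, Matrix.mul_apply, Prod.fst_sum]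
        · simp [Matrix.mul_apply, Prod.snd_sum] }
  refine ⟨l, hl, F.toHomUnits, fun hd => ?_, fun g h hgh => ?_⟩
  · obtain ⟨z, hz⟩ := h2 _ (Finset.mem_insert_self _ _)
    have h3 := Γ.mul_mem (natCast_mem Γ (Nat.card G)) hz
    have h4 : (Nat.card G : ℂ) ≠ 0 := by exact_mod_cast Nat.card_pos.ne'
    have h5 : (Nat.card G : ZMod l) = 0 := (ZMod.natCast_eq_zero_iff _ _).2 hd
    have h6 : ((1 : ℂ), (0 : ZMod l)) ∈ Γ := by
      convert h3 using 1
      ext
      · exact (mul_inv_cancel₀ h4).symm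
      · change 0 = (Nat.card G : ZMod l) * z
        rw [h5, zero_mul]
    exact zero_ne_one (huniq h6 Γ.one_mem)
  · have hF : F g = F h := congrArg Units.val hgh
    refine Subtype.ext (Units.ext (Matrix.ext fun i j => ?_))
    by_contra hne
    have hyy : y g i j = y h i j := congrFun (congrFun hF i) j
    obtain ⟨z, hz⟩ := h2 (x g i j - x h i j)⁻¹ (Finset.mem_insert_of_mem (Finset.mem_union_right _
      (Finset.mem_image.2 ⟨(x g i j, x h i j), Finset.mem_product.2 ⟨hx _ _ _, hx _ _ _⟩, rfl⟩)))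
    have h3 := Γ.mul_mem (Γ.sub_mem (hy g i j) (hy h i j)) hz
    have h6 : ((1 : ℂ), (0 : ZMod l)) ∈ Γ := by
      convert h3 using 1
      ext
      · simp [mul_inv_cancel₀ (sub_ne_zero.2 hne : x g i j - x h i j ≠ 0)]
      · simp [hyy]
    exact zero_ne_one (huniq h6 Γ.one_mem)

theorem s4265_of (hm : MainStmt.{0}) (r : ℕ) (G : Subgroup (GL (Fin r) ℂ)) [Finite G]
    (hsolv : Group.IsSolvable G) [hF : (Cfsg.fittingSubgroup G).Normal] (H : Subgroup G) :
    Nat.card (ConjClasses (H ⧸ (Cfsg.fittingSubgroup G).subgroupOf H)) ≤ 3 ^ (r - 1) := by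
  obtain ⟨l, hl, f, h1, h2⟩ := red r G
  let _ : DistribMulAction G (Fin r → ZMod l) :=
    DistribMulAction.compHom _ ((Matrix.toLinAlgEquiv'.toMulEquiv.toMonoidHom.comp
      (Units.coeHom _)).comp f)
  have hV : ∀ v : Fin r → ZMod l, l • v = 0 := fun v => by
    ext i
    simp
  refine hm G (Fin r → ZMod l) (H12.RO.cr_of_coprime hl.out
    ((Nat.Prime.coprime_iff_not_dvd hl.out).2 h1) hV) (fun g hg => ?_) l r hl.out hV
    (by simp) H H.subtype
  apply h2
  rw [map_one]
  refine Units.ext (Matrix.toLinAlgEquiv'.injective ?_)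
  rw [Units.val_one, map_one]
  exact LinearMap.ext hg

end Cfsg.Agent.Lead.KR
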