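import Cfsg.Agent.Lead.KRMain
import Cfsg.Agent.Lead.KRReal
import Cfsg.Agent.Lead.KRRed
import Cfsg.Agent.H29.KrB
import Cfsg.Agent.H73.KrS4
import Cfsg.Agent.H28.KrO
import Cfsg.Agent.H28.MwS
import Cfsg.Agent.H38.KrKV
import Cfsg.Agent.H22.KRBlk

/-!
Project KR: the unconditional statements.
-/

set_option autoImplicit false

namespace Cfsg.Agent.Lead.KR

open Cfsg.Agent.H53.MW

universe u

theorem sympAll : SympP.{u} fun _ => True := by
  intro G W A _ _ _ _ _ _ _ b e _
  by_cases h4 : e = 4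
  · exact H73.KrS4.symp4 ordKit (H28.MwS.ord16 pk ordKit) H29.Kr.ab G W A b e h4
  by_cases h8 : e = 8 ∨ e = 9 ∨ e = 12
  · exact H28.KrO.symp G W A b e h8
  · exact H29.Kr.sympA G W A b e (by omega)

theorem mainAll : MainStmt.{u} := main sympAll

theorem kvAll : KVStmt.{u} := H38.KrKV.kv mainAll real

theorem kxAll : KXStmt.{u} := H38.KrKV.kx kvAll

end Cfsg.Agent.Lead.KR
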