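import Cfsg.Agent.Lead.KRDefs
import Cfsg.Agent.H53.MWPk
import Cfsg.Agent.H53.MWOrd
import Cfsg.Agent.H3.Fitting

/-!
Project KR: the induction.
-/

set_option autoImplicit false

namespace Cfsg.Agent.Lead.KR

open MulAction Cfsg.Agent.H12.RO Cfsg.Agent.H53.MW
open scoped commutatorElement

universe u

theorem lcs_mono {G : Type*} [Group G] {S T : Subgroup G} (h : S ≤ T) :
    ∀ n, S.lowerCentralSeries n ≤ T.lowerCentralSeries n
  | 0 => h
  | n + 1 => Subgroup.commutator_mono (lcs_mono h n) h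

theorem lcs_comap {G H : Type*} [Group G] [Group H] (f : G →* H) {S : Subgroup G} {T : Subgroup H}
    (h : S ≤ T.comap f) {n : ℕ} {g : G} (hg : g ∈ S.lowerCentralSeries n) :
    f g ∈ T.lowerCentralSeries n :=
  lcs_mono (Subgroup.map_le_iff_le_comap.2 h) n (S.map_lowerCentralSeries f n ▸ ⟨g, hg, rfl⟩)

theorem Bd.fam {G : Type u} [Group G] {ι : Type*} (N : ι → Subgroup G) [∀ i, (N i).Normal] {c : ℕ}
    (h : ∀ i, Bd (N i) c) (s : Finset ι) :
    ∃ (A : Subgroup G) (_ : A.Normal), (∀ i ∈ s, A ≤ N i) ∧ Bd A (c ^ s.card) := by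
  classical
  induction s using Finset.induction_on with
  | empty => exact ⟨⊤, inferInstance, by simp, by simpa using Bd.top⟩
  | insert a s ha ih =>
    obtain ⟨A, _, h1, h2⟩ := ih
    refine ⟨A ⊓ N a, inferInstance, fun i hi => ?_, ?_⟩
    · rcases Finset.mem_insert.1 hi with rfl | hi
      · exact inf_le_right
      · exact inf_le_left.trans (h1 i hi)
    · rw [Finset.card_insert_of_notMem ha, pow_succ]
      exact h2.inf (h a)

theorem num4 (k : ℕ) : (k + 7) ^ 4 ≤ 5 * 3 ^ (k + 6) := by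
  induction k with
  | zero => norm_num
  | succ k ih =>
    have h1 : (7 * (k + 1 + 7)) ^ 4 ≤ (8 * (k + 7)) ^ 4 := Nat.pow_le_pow_left (by omega) 4
    rw [mul_pow, mul_pow] at h1
    rw [show k + 1 + 6 = k + 6 + 1 from rfl, pow_succ 3]
    omega

theorem le_three_pow (f : ℕ) : f ≤ 3 ^ (f - 1) := by
  rcases f with _ | f
  · simp
  · exact Nat.lt_pow_self (by norm_num)

theorem aff_card {G Ω N : Type u} [Group G] [Finite G] [Group.IsSolvable G] [MulAction G Ω]
    [Fintype Ω] [Nontrivial Ω] [AddCommGroup N] [DistribMulAction G N] (A : Aff G Ω N) :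
    Nat.card (img G Ω) ≤ 3 ^ (Fintype.card Ω - 1) := by
  have : Finite N := Finite.of_equiv _ A.e
  have : Nontrivial N := A.e.symm.nontrivial
  have hN : Nat.card N = Fintype.card Ω := by rw [← Nat.card_congr A.e, Nat.card_eq_fintype_card]
  have b1 := ord_aff A
  have b2 := ord_base A.irr.cr
  have b3 : Nat.card (img G Ω) ≤ (Fintype.card Ω).factorial := by
    classical
    rw [← Fintype.card_perm, ← Nat.card_eq_fintype_card]
    exact Subgroup.card_le_card_group _
  have h6 : Fintype.card Ω ≠ 6 := fun e => by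
    have := Fact.mk Nat.prime_two
    have := Fact.mk Nat.prime_three
    obtain ⟨x, hx⟩ := exists_prime_addOrderOf_dvd_card' (G := N) 2 (by rw [hN, e]; norm_num)
    obtain ⟨y, hy⟩ := exists_prime_addOrderOf_dvd_card' (G := N) 3 (by rw [hN, e]; norm_num)
    rcases A.irr (nsmulAddMonoidHom (α := N) 2).ker (fun g v hv => by
      change 2 • g • v = 0
      rw [← smul_comm g, show 2 • v = 0 from hv, smul_zero]) with h | h
    · have h1 : x ∈ (nsmulAddMonoidHom (α := N) 2).ker := hx ▸ addOrderOf_nsmul_eq_zero x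
      rw [h, AddSubgroup.mem_bot] at h1
      rw [h1, addOrderOf_zero] at hx
      omega
    · have h1 : y ∈ (nsmulAddMonoidHom (α := N) 2).ker := h ▸ AddSubgroup.mem_top y
      have := addOrderOf_dvd_of_nsmul_eq_zero (show 2 • y = 0 from h1)
      rw [hy] at this
      omega
  have h5 : Fintype.card Ω = 5 → Nat.card (img G Ω) ≤ 20 := fun e => by
    have := (ord_prime (G := G) (N := N) (by rw [hN, e]; norm_num)).1
    rw [hN, e] at this
    rw [e] at b1
    omega
  rw [hN] at b2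
  generalize Fintype.card Ω = m at *
  rcases lt_or_ge m 7 with h | h
  · interval_cases m <;> simp_all [Nat.factorial] <;> omega
  · obtain ⟨k, rfl⟩ : ∃ k, m = k + 7 := ⟨m - 7, by omega⟩
    have := num4 k
    rw [show k + 7 - 1 = k + 6 from rfl]
    rw [pow_succ'] at this
    nlinarith

theorem card_pow {V : Type*} [AddCommGroup V] [Finite V] {p r : ℕ} (hp : p.Prime)
    (h : Nat.card V = p ^ r) (U : AddSubgroup V) (hU : U ≠ ⊥) :
    ∃ k, 0 < k ∧ Nat.card U = p ^ k := by
  obtain ⟨k, -, hk⟩ := (Nat.dvd_prime_pow hp).1 (h ▸ U.card_addSubgroup_dvd_card)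
  refine ⟨k, Nat.pos_of_ne_zero ?_, hk⟩
  rintro rfl
  exact hU (AddSubgroup.card_eq_one.1 hk)

theorem main (hs : SympP.{u} fun _ => True) : MainStmt.{u} := by
  intro G V _ _ _ _ _ _ _ hcr hf p r hp hk hr
  have key := ind (fun G V _ _ _ => ∀ r : ℕ, (∀ v : V, p • v = 0) → Nat.card V = p ^ r →
    ∃ (N : Subgroup G) (_ : N.Normal), (∃ n, Triv (N.lowerCentralSeries n) V) ∧
      Bd N (3 ^ (r - 1))) ?_ ?_ ?_ ?_ ?_ G V hcr r hk hr
  · obtain ⟨N, _, ⟨n, h1⟩, h2⟩ := key
    refine h2.mono (H3.le_fitting ((Subgroup.isNilpotent_iff_lowerCentralSeries N).2 ⟨n, ?_⟩))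
    exact eq_bot_iff.2 fun g hg => hf g (h1 g hg)
  · intro G V _ _ _ _ r _ _
    exact ⟨⊤, inferInstance, ⟨0, fun _ _ _ => Subsingleton.elim _ _⟩,
      Bd.top.le (Nat.one_le_pow _ _ (by norm_num))⟩
  · intro G V _ _ _ _ _ _ U W hU hW _ k1 k2 k3 k4 iU iW r hk hr
    obtain ⟨a, ha, ea⟩ := card_pow hp hr U k1
    obtain ⟨b, hb, eb⟩ := card_pow hp hr W k2
    obtain ⟨A, _, ⟨n, a1⟩, a2⟩ := iU a (fun v => Subtype.ext (hk v)) ea
    obtain ⟨B, _, ⟨m, b1⟩, b2⟩ := iW b (fun v => Subtype.ext (hk v)) eb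
    have a4 : Nat.card U * Nat.card W ≤ Nat.card V := by
      rw [← Nat.card_prod]
      refine Nat.card_le_card_of_injective (fun x : U × W => (x.1 : V) + x.2) fun x y e => ?_
      have e1 : (x.1 : V) - y.1 = y.2 - x.2 := by
        rw [sub_eq_sub_iff_add_eq_add, add_comm (y.2 : V)]; exact e
      have e2 : (x.1 : V) - y.1 ∈ U ⊓ W :=
        AddSubgroup.mem_inf.2 ⟨U.sub_mem x.1.2 y.1.2, e1 ▸ W.sub_mem y.2.2 x.2.2⟩
      rw [k3, AddSubgroup.mem_bot] at e2
      exact Prod.ext (Subtype.ext (sub_eq_zero.1 e2))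
        (Subtype.ext (sub_eq_zero.1 (e1 ▸ e2)).symm)
    rw [ea, eb, hr, ← pow_add, Nat.pow_le_pow_iff_right hp.one_lt] at a4
    refine ⟨A ⊓ B, inferInstance, ⟨max n m, fun g hg v => ?_⟩, (a2.inf b2).le ?_⟩
    · obtain ⟨x, hx, y, hy, rfl⟩ := AddSubgroup.mem_sup.1 (k4 ▸ AddSubgroup.mem_top v : v ∈ U ⊔ W)
      have e1 := a1 g (A.lowerCentralSeries_antitone (le_max_left n m)
        (lcs_mono inf_le_left _ hg)) ⟨x, hx⟩
      have e2 := b1 g (B.lowerCentralSeries_antitone (le_max_right n m)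
        (lcs_mono inf_le_right _ hg)) ⟨y, hy⟩
      rw [smul_add, show g • x = x from congrArg Subtype.val e1,
        show g • y = y from congrArg Subtype.val e2]
    · rw [← pow_add]
      exact Nat.pow_le_pow_right (by norm_num) (by omega)
  · intro G G' V _ _ _ _ _ _ _ f _ e i r hk hr
    obtain ⟨N, _, ⟨n, h1⟩, h2⟩ := i r hk hr
    exact ⟨N.comap f, inferInstance, ⟨n, fun g hg v => e g v ▸ h1 _ (lcs_comap f le_rfl hg) v⟩,
      h2.comap f⟩
  · intro G V _ _ _ _ _ _ _ hf hpr _ r hk hr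
    obtain ⟨K, _, _, _, W, _, _, _, σ, U, To, E, M, π, b, e, P⟩ := pk G V hf hpr
    obtain ⟨c1, -, -, c4, -, c6, -⟩ := ordKit.pk G V K W σ U To E M π b e P
    obtain ⟨f, f1, f2, f3⟩ := c4 p hp hk
    have := P.Mn
    refine ⟨M, P.Mn, ⟨2, fun g hg v => ?_⟩, ?_⟩
    · have h1 : M.lowerCentralSeries 1 ≤ U :=
        Subgroup.commutator_le.2 fun s hs t ht => P.scal _ ⟨_, P.hb s hs t ht⟩
      have h2 : M.lowerCentralSeries 2 ≤ ⊥ :=
        Subgroup.commutator_le.2 fun s hs t ht =>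
          commutatorElement_eq_one_iff_commute.2 (c6 t (P.σM t ht) s (h1 hs))
      rw [Subgroup.mem_bot.1 (h2 hg), one_smul]
    · have h1 : Bd (toPermHom σ.ker W).ker (3 ^ (e - 1)) :=
        Bd.ker (hs σ.ker W Kˣ b e trivial (clifford P.cr σ.ker) P.card P.b_add_left P.b_add_right
          P.b_self P.b_nd fun g x y => Units.ext (by
            have := P.b_smul g x y
            rw [show σ g = 1 from g.2] at this
            exact this))
      have h2 : Bd (M.comap σ.ker.subtype) (3 ^ (e - 1)) := h1.mono fun g hg =>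
        P.kerW g g.2 fun w => Equiv.ext_iff.1 (MonoidHom.mem_ker.1 hg) w
      refine (((Bd.index σ.ker).step h2).mono inf_le_right).le ?_
      rw [f1, hr, ← pow_mul] at c1
      have h3 := Nat.pow_right_injective hp.two_le c1
      have h4 := P.le
      have h5 := P.pos
      calc _ ≤ 3 ^ (f - 1) * 3 ^ (e - 1) :=
            Nat.mul_le_mul_right _ ((Nat.le_of_dvd f3 f2).trans (le_three_pow f))
        _ ≤ _ := by
          rw [← pow_add]
          refine Nat.pow_le_pow_right (by norm_num) ?_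
          obtain ⟨f, rfl⟩ : ∃ k, f = k + 1 := ⟨f - 1, by omega⟩
          obtain ⟨e, rfl⟩ : ∃ k, e = k + 1 := ⟨e - 1, by omega⟩
          have : (f + 1) * (e + 1) ≤ r := h3 ▸ Nat.mul_le_mul_left _ h4
          have : f + e + 1 ≤ (f + 1) * (e + 1) := by nlinarith
          omega
  · intro G V Ω N _ _ _ _ _ _ _ _ _ _ _ _ hf hirr S A IH r hk hr
    have hne : ∀ ω, (S.e ω).range ≠ ⊥ := fun ω h => by
      obtain ⟨x, hx⟩ := S.ne ω
      exact hx (AddSubgroup.mem_bot.1 (h ▸ ⟨x, rfl⟩))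
    obtain ⟨ω₀⟩ : Nonempty Ω := inferInstance
    obtain ⟨a, ha, ea⟩ := card_pow hp hr _ (hne ω₀)
    have ea' : ∀ ω, Nat.card (S.e ω).range = p ^ a := fun ω => (sys_card_eq S hirr ω ω₀).trans ea
    have hra : r = a * Fintype.card Ω := by
      have := (ordKit.sysCard G V Ω S).1
      simp only [ea', Finset.prod_const, Finset.card_univ, ← pow_mul, hr] at this
      exact Nat.pow_right_injective hp.two_le this
    have h1 := fun ω => by
      letI := subAct (S.inv_range ω)
      exact IH (stabilizer G ω) (S.e ω).range (S.card_range_lt ω) (S.irr_range hirr ω).cr a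
        (fun v => Subtype.ext (hk v)) (ea' ω)
    choose B hB hn h2 using h1
    choose n hn using hn
    let K := (toPermHom G Ω).ker
    have hK : ∀ ω, K ≤ stabilizer G ω := fun ω g hg => Equiv.ext_iff.1 (MonoidHom.mem_ker.1 hg) ω
    obtain ⟨C, _, c1, c2⟩ := Bd.fam (fun ω => (B ω).comap (Subgroup.inclusion (hK ω)))
      (fun ω => (h2 ω).comap _) Finset.univ
    have c3 : Group.IsNilpotent C := by
      refine (Subgroup.isNilpotent_iff_lowerCentralSeries C).2 ⟨Finset.univ.sup n, ?_⟩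
      refine eq_bot_iff.2 fun g hg => Subtype.ext (hf g fun x => ?_)
      rw [← S.sum x, Finset.smul_sum]
      refine Finset.sum_congr rfl fun ω _ => ?_
      exact congrArg Subtype.val (hn ω _ ((B ω).lowerCentralSeries_antitone
        (Finset.le_sup (Finset.mem_univ ω)) (lcs_comap _ (c1 ω (Finset.mem_univ ω)) hg))
        ⟨S.e ω x, x, rfl⟩)
    have := H3.fitting_normal G
    have c4 : Bd ((fittingSubgroup G).comap K.subtype) ((3 ^ (a - 1)) ^ Fintype.card Ω) :=
      c2.mono ((H3.le_fitting c3).trans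
        (Subgroup.map_le_iff_le_comap.1 (H3.map_fitting_le_fitting K)))
    obtain ⟨k, hk'⟩ := (Subgroup.isNilpotent_iff_lowerCentralSeries _).1 (H3.fitting_isNilpotent G)
    refine ⟨fittingSubgroup G, this, ⟨k, fun g hg v => ?_⟩,
      (((Bd.index K).step c4).mono inf_le_right).le ?_⟩
    · rw [hk', Subgroup.mem_bot] at hg
      rw [hg, one_smul]
    · rw [Subgroup.index_ker]
      refine (Nat.mul_le_mul_right _ (aff_card A)).trans ?_
      rw [← pow_mul, ← pow_add, hra]
      refine Nat.pow_le_pow_right (by norm_num) ?_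
      obtain ⟨a, rfl⟩ : ∃ k, a = k + 1 := ⟨a - 1, by omega⟩
      rw [Nat.add_sub_cancel, add_mul, one_mul]
      have := Fintype.card_pos (α := Ω)
      omega

end Cfsg.Agent.Lead.KR
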