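import Cfsg.Agent.Lead.PcRow
import Cfsg.Agent.H35.PcRed

set_option autoImplicit false

namespace Cfsg.Agent.Lead.Pc

open Subgroup

theorem bridge (c : CoreStmt.{0}) : Cfsg.Agent.H35.PcRed.CoreStmt := by
  intro G _ _ hP S hS sim na cen
  obtain ⟨Q⟩ : Nonempty (Sylow 2 S) := inferInstance
  refine c G S ((Q : Subgroup S).map S.subtype)
    ⟨cp_of hP, hS, sim, na, cen, map_subtype_le _, Q.isPGroup'.map _, ?_⟩
  have e : ((Q : Subgroup S).map S.subtype).relIndex S = (Q : Subgroup S).index := by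
    rw [relIndex, subgroupOf, comap_map_eq_self_of_injective S.subtype_injective]
  rw [e, ← Nat.not_even_iff_odd, even_iff_two_dvd]
  exact Q.not_dvd_index

end Cfsg.Agent.Lead.Pc
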